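import Mathlib
import Cfsg.Agent.Lib.Helper49.HUP.Defs
import Cfsg.Agent.Lib.Helper95.SL23
import Cfsg.Agent.Lib.Helper83.Idx2

/-!
# HUP project, package [CORE8]
-/

set_option autoImplicit false

universe v

namespace Cfsg.Agent.Lib.Helper90.HUP

open Cfsg.Agent.Lib.Helper49.HUP

/-- a finite 2-group of order at least 2 has a normal subgroup of index 2 -/
theorem hasIdx2N_of_card_two_pow {X : Type v} [Group X] [Finite X] {k : ℕ} (hk : 1 ≤ k)
    (h : Nat.card X = 2 ^ k) : HasIdx2N X := by
  have h1 : (⊥ : Subgroup X).index = 2 ^ k := by rw [Subgroup.index_bot, h]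
  obtain ⟨N, hN⟩ := Cfsg.Agent.Lib.Helper83.hasIdx2_of_index_two_pow (⊥ : Subgroup X) hk h1
  exact ⟨N, Subgroup.normal_of_index_eq_two hN, hN⟩

lemma q8_sq_eq_one : ∀ q : QuaternionGroup 2, q ^ 2 = 1 → q = 1 ∨ q = QuaternionGroup.a 2 := by
  decide

/-- a subgroup of order 4 of a group isomorphic to `Q₈` is cyclic -/
theorem isCyclic_of_card_four {X : Type v} [Group X] (P T : Subgroup X) (hTP : T ≤ P)
    (eP : P ≃* QuaternionGroup 2) (hT : Nat.card T = 4) : IsCyclic T := by
  have : Finite T := Nat.finite_of_card_ne_zero (by rw [hT]; norm_num)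
  by_contra hnc
  have hsq : ∀ t : T, t ^ 2 = 1 := by
    intro t
    have h1 : orderOf t ∣ 4 := hT ▸ orderOf_dvd_natCard t
    have h2 : orderOf t ≠ 4 := by
      intro h
      exact hnc (isCyclic_of_orderOf_eq_card t (by rw [h, hT]))
    have h3 : orderOf t ∣ 2 := by
      have h4 : orderOf t ∈ Nat.divisors 4 := Nat.mem_divisors.mpr ⟨h1, by norm_num⟩
      have h5 : ∀ d ∈ Nat.divisors 4, d ≠ 4 → d ∣ 2 := by decide
      exact h5 _ h4 h2
    exact orderOf_dvd_iff_pow_eq_one.mp h3
  let f : T → QuaternionGroup 2 := fun t => eP ⟨t.1, hTP t.2⟩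
  have hf : Function.Injective f := by
    intro s t hst
    have h1 := eP.injective hst
    have h2 := congrArg (fun z : P => (z : X)) h1
    exact Subtype.ext h2
  have hf2 : ∀ t : T, f t = 1 ∨ f t = QuaternionGroup.a 2 := by
    intro t
    apply q8_sq_eq_one
    show (eP ⟨t.1, hTP t.2⟩) ^ 2 = 1
    rw [← map_pow]
    have h1 : (⟨t.1, hTP t.2⟩ : P) ^ 2 = 1 := by
      apply Subtype.ext
      have h2 := congrArg Subtype.val (hsq t)
      simpa using h2
    rw [h1, map_one]
  classical
  have hle : Nat.card T ≤ Nat.card (Fin 2) := by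
    apply Nat.card_le_card_of_injective (fun t : T => if f t = 1 then (0 : Fin 2) else 1)
    intro s t hst
    by_cases hs : f s = 1 <;> by_cases ht : f t = 1
    · exact hf (hs.trans ht.symm)
    · simp [hs, ht] at hst
    · simp [hs, ht] at hst
    · rcases hf2 s with h | h
      · exact absurd h hs
      · rcases hf2 t with h' | h'
        · exact absurd h' ht
        · exact hf (h.trans h'.symm)
  rw [hT] at hle
  simp at hle

theorem pkgCore8 (hh : PkgHH.{v}) : PkgCore8.{v} := by
  intro X _ _ hsol hocf hP hdvd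
  obtain ⟨P, ⟨eP⟩⟩ := hP
  have : Fact (Nat.Prime 2) := ⟨Nat.prime_two⟩
  obtain ⟨T, hTn, hT2, hCT⟩ := hh hsol hocf
  haveI := hTn
  have hTP : T ≤ (P : Subgroup X) := hT2.le_sylow_of_normal P
  have hP8 : Nat.card (P : Subgroup X) = 8 := by
    rw [Nat.card_congr eP.toEquiv, Nat.card_eq_fintype_card, QuaternionGroup.card]
  have h8X : 8 ∣ Nat.card X := hP8 ▸ Subgroup.card_subgroup_dvd_card (P : Subgroup X)
  have hTdvd : Nat.card T ∣ 8 := hP8 ▸ Subgroup.card_dvd_of_le hTP
  have hXpos : 0 < Nat.card X := Nat.card_pos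
  -- order of X
  have hXcases : Nat.card X = 8 ∨ Nat.card X = 24 ∨ Nat.card X = 40 ∨ Nat.card X = 120 := by
    have h1 : Nat.card X ∈ Nat.divisors 120 := Nat.mem_divisors.mpr ⟨hdvd, by norm_num⟩
    have h2 : ∀ d ∈ Nat.divisors 120, 8 ∣ d → d = 8 ∨ d = 24 ∨ d = 40 ∨ d = 120 := by decide
    exact h2 _ h1 h8X
  -- a 2-group of order 8
  have hcase8 : Nat.card X = 8 → HasIdx2N X := fun h =>
    hasIdx2N_of_card_two_pow (k := 3) (by norm_num) (by rw [h]; norm_num)
  have hTcases : Nat.card T = 1 ∨ Nat.card T = 2 ∨ Nat.card T = 4 ∨ Nat.card T = 8 := by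
    have h1 : Nat.card T ∈ Nat.divisors 8 := Nat.mem_divisors.mpr ⟨hTdvd, by norm_num⟩
    have h2 : ∀ d ∈ Nat.divisors 8, d = 1 ∨ d = 2 ∨ d = 4 ∨ d = 8 := by decide
    exact h2 _ h1
  -- the case of a small `T`
  have hsmall : IsCyclic T → Nat.card T ≤ 4 → HasIdx2N X := by
    intro hcyc hle
    apply hcase8
    -- `X / C(T)` embeds in `MulAut T`
    have hker : (MulAut.conjNormal (H := T)).ker ≤ Subgroup.centralizer (T : Set X) := by
      intro g hg
      rw [MonoidHom.mem_ker] at hg
      rw [Subgroup.mem_centralizer_iff]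
      intro h hh
      have h1 := congrArg (fun φ : MulAut T => ((φ ⟨h, hh⟩ : T) : X)) hg
      simp only [MulAut.conjNormal_apply, MulAut.one_apply] at h1
      calc h * g = (g * h * g⁻¹) * g := by rw [h1]
        _ = g * h := by group
    have h1 : (MulAut.conjNormal (H := T)).ker.index ∣ Nat.card (MulAut T) := by
      rw [Subgroup.index_ker]
      exact Subgroup.card_subgroup_dvd_card _
    rw [IsCyclic.card_mulAut] at h1
    have h2 : Nat.card (MulAut.conjNormal (H := T)).ker ≤ Nat.card T :=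
      Subgroup.card_le_of_le (hker.trans hCT)
    have h3 := (MulAut.conjNormal (H := T)).ker.card_mul_index
    have h4 : (MulAut.conjNormal (H := T)).ker.index ≤ Nat.totient (Nat.card T) :=
      Nat.le_of_dvd (Nat.totient_pos.mpr Nat.card_pos) h1
    have h5 : Nat.totient (Nat.card T) ≤ 2 := by
      rcases hTcases with h | h | h | h
      · rw [h]; decide
      · rw [h]; decide
      · rw [h]; decide
      · omega
    have h6 : Nat.card X ≤ 4 * 2 := by
      rw [← h3]
      exact Nat.mul_le_mul (h2.trans hle) (h4.trans h5)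
    rcases hXcases with h | h | h | h <;> omega
  rcases hTcases with h1 | h2 | h4 | h8
  · left
    have : Subsingleton T := (Nat.card_eq_one_iff_unique.mp h1).1
    exact hsmall isCyclic_of_subsingleton (by omega)
  · left
    exact hsmall (isCyclic_of_prime_card h2) (by omega)
  · left
    exact hsmall (isCyclic_of_card_four (P : Subgroup X) T hTP eP h4) (by omega)
  · -- `T = P ≃ Q₈`
    have hTeq : T = (P : Subgroup X) :=
      Subgroup.eq_of_le_of_card_ge hTP (by rw [hP8, h8])
    let eT : T ≃* QuaternionGroup 2 := (MulEquiv.subgroupCongr hTeq).trans eP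
    have hyN : ∀ g : X, ∀ h ∈ T, g * h * g⁻¹ ∈ T := fun g h hh => hTn.conj_mem h hh g
    -- elements centralizing `T` have 2-power order
    have hcent : ∀ g : X, (∀ h ∈ T, g * h * g⁻¹ = h) → ∃ k : ℕ, g ^ 2 ^ k = 1 := by
      intro g hg
      have hgT : g ∈ T := by
        apply hCT
        rw [Subgroup.mem_centralizer_iff]
        intro h hh
        have := hg h hh
        rw [mul_inv_eq_iff_eq_mul] at this
        exact this.symm
      obtain ⟨k, hk⟩ := hT2 ⟨g, hgT⟩
      refine ⟨k, ?_⟩
      have := congrArg Subtype.val hk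
      simpa using this
    -- no element of order 5
    have h5 : ¬ 5 ∣ Nat.card X := by
      intro h5
      have : Fact (Nat.Prime 5) := ⟨by norm_num⟩
      obtain ⟨g, hg⟩ := exists_prime_orderOf_dvd_card' 5 h5
      have hodd : Odd (orderOf g) := by rw [hg]; decide
      have hc3 := Cfsg.Agent.Lib.Helper95.SL23.cube_centralizes T eT g (hyN g) hodd
      obtain ⟨k, hk⟩ := hcent (g ^ 3) hc3
      rw [← pow_mul] at hk
      have hd : 5 ∣ 3 * 2 ^ k := by
        rw [← hg]
        exact orderOf_dvd_of_pow_eq_one hk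
      rcases (Nat.Prime.dvd_mul (by norm_num)).mp hd with h | h
      · omega
      · have := Nat.Prime.dvd_of_dvd_pow (by norm_num) h
        omega
    rcases hXcases with h | h | h | h
    · left; exact hcase8 h
    · right
      refine ⟨h, ?_⟩
      have : Fact (Nat.Prime 3) := ⟨by norm_num⟩
      obtain ⟨y, hy⟩ := exists_prime_orderOf_dvd_card' 3 (by rw [h]; norm_num : 3 ∣ Nat.card X)
      have hy3 : y ^ 3 = 1 := by rw [← hy]; exact pow_orderOf_eq_one y
      have hyC : ∃ h ∈ T, y * h * y⁻¹ ≠ h := by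
        by_contra hcon
        push_neg at hcon
        obtain ⟨k, hk⟩ := hcent y hcon
        have hd : 3 ∣ 2 ^ k := by
          rw [← hy]
          exact orderOf_dvd_of_pow_eq_one hk
        have := Nat.Prime.dvd_of_dvd_pow (by norm_num) hd
        omega
      have hgen : T ⊔ Subgroup.zpowers y = ⊤ := by
        rw [← Subgroup.card_eq_iff_eq_top]
        have d1 : 8 ∣ Nat.card (T ⊔ Subgroup.zpowers y : Subgroup X) :=
          h8 ▸ Subgroup.card_dvd_of_le le_sup_left
        have d2 : 3 ∣ Nat.card (T ⊔ Subgroup.zpowers y : Subgroup X) := by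
          have := Subgroup.card_dvd_of_le (le_sup_right : Subgroup.zpowers y ≤ T ⊔ Subgroup.zpowers y)
          rwa [Nat.card_zpowers, hy] at this
        have d3 : 8 * 3 ∣ Nat.card (T ⊔ Subgroup.zpowers y : Subgroup X) :=
          Nat.Coprime.mul_dvd_of_dvd_of_dvd (by norm_num) d1 d2
        have d4 : Nat.card (T ⊔ Subgroup.zpowers y : Subgroup X) ∣ Nat.card X :=
          Subgroup.card_subgroup_dvd_card _
        rw [h] at d4 ⊢
        exact Nat.dvd_antisymm d4 d3
      exact Cfsg.Agent.Lib.Helper95.SL23.nonempty_mulEquiv_SL23 T eT y hy3 (hyN y) hyC hgen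
    · exact absurd (by rw [h]; norm_num : 5 ∣ Nat.card X) h5
    · exact absurd (by rw [h]; norm_num : 5 ∣ Nat.card X) h5

end Cfsg.Agent.Lib.Helper90.HUP
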