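import Mathlib
import Cfsg.Agent.Lib.Helper49.HUP.Defs
import Cfsg.Agent.Lib.Helper83.Idx2
import Cfsg.Agent.Lib.Helper90.HUP.Core8

/-!
# HUP project, package [CORE16]
-/

set_option autoImplicit false

universe v

namespace Cfsg.Agent.Lib.Helper90.HUP

open Cfsg.Agent.Lib.Helper49.HUP QuaternionGroup

/-- the map from `Q₁₆` determined by two elements. -/
def q16Fun {G : Type*} [Group G] (i j : G) : QuaternionGroup 4 → G
  | a k => i ^ k.val
  | xa k => j * i ^ k.val

lemma hom_eq_q16Fun {G : Type*} [Group G] (f : QuaternionGroup 4 →* G) (q : QuaternionGroup 4) :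
    f q = q16Fun (f (a 1)) (f (xa 0)) q := by
  rcases q with k | k
  · show f (a k) = f (a 1) ^ k.val
    rw [← map_pow, a_one_pow, ZMod.natCast_zmod_val]
  · show f (xa k) = f (xa 0) * f (a 1) ^ k.val
    rw [← map_pow, a_one_pow, ZMod.natCast_zmod_val, ← map_mul, xa_mul_a, zero_add]

lemma q16_sq_eq_one : ∀ q : QuaternionGroup 4, q ^ 2 = 1 → q = 1 ∨ q = a 4 := by
  decide

set_option maxRecDepth 100000 in
lemma q16_iter8 : ∀ s t : QuaternionGroup 4, s ^ 4 ≠ 1 → (∀ k : ZMod (2 * 4), t ≠ s ^ k.val) →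
    ∀ q : QuaternionGroup 4, q16Fun s t (q16Fun s t (q16Fun s t (q16Fun s t
      (q16Fun s t (q16Fun s t (q16Fun s t (q16Fun s t q))))))) = q := by
  decide +kernel

/-- a subgroup of order 4 of a group with at most one involution is cyclic -/
theorem isCyclic_of_card_four' {X : Type v} [Group X] (P T : Subgroup X) (hTP : T ≤ P)
    {Q : Type*} [Group Q] (eP : P ≃* Q) (z : Q) (hz : ∀ q : Q, q ^ 2 = 1 → q = 1 ∨ q = z)
    (hT : Nat.card T = 4) : IsCyclic T := by
  have : Finite T := Nat.finite_of_card_ne_zero (by rw [hT]; norm_num)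
  by_contra hnc
  have hsq : ∀ t : T, t ^ 2 = 1 := by
    intro t
    have h1 : orderOf t ∣ 4 := hT ▸ orderOf_dvd_natCard t
    have h2 : orderOf t ≠ 4 := by
      intro h
      exact hnc (isCyclic_of_orderOf_eq_card t (by rw [h, hT]))
    have h3 : orderOf t ∣ 2 := by
      have h4 : orderOf t ∈ Nat.divisors 4 := Nat.mem_divisors.mpr ⟨h1, by norm_num⟩
      have h5 : ∀ d ∈ Nat.divisors 4, d ≠ 4 → d ∣ 2 := by decide
      exact h5 _ h4 h2
    exact orderOf_dvd_iff_pow_eq_one.mp h3
  let f : T → Q := fun t => eP ⟨t.1, hTP t.2⟩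
  have hf : Function.Injective f := by
    intro s t hst
    have h1 := eP.injective hst
    have h2 := congrArg (fun z : P => (z : X)) h1
    exact Subtype.ext h2
  have hf2 : ∀ t : T, f t = 1 ∨ f t = z := by
    intro t
    apply hz
    show (eP ⟨t.1, hTP t.2⟩) ^ 2 = 1
    rw [← map_pow]
    have h1 : (⟨t.1, hTP t.2⟩ : P) ^ 2 = 1 := by
      apply Subtype.ext
      have h2 := congrArg Subtype.val (hsq t)
      simpa using h2
    rw [h1, map_one]
  classical
  have hle : Nat.card T ≤ Nat.card (Fin 2) := by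
    apply Nat.card_le_card_of_injective (fun t : T => if f t = 1 then (0 : Fin 2) else 1)
    intro s t hst
    by_cases hs : f s = 1 <;> by_cases ht : f t = 1
    · exact hf (hs.trans ht.symm)
    · simp [hs, ht] at hst
    · simp [hs, ht] at hst
    · rcases hf2 s with h | h
      · exact absurd h hs
      · rcases hf2 t with h' | h'
        · exact absurd h' ht
        · exact hf (h.trans h'.symm)
  rw [hT] at hle
  simp at hle

section transport

variable {G : Type*} [Group G] {Q : Type*} [Group Q]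

/-- conjugation by `y` on `H ≃ Q`, transported to `Q`. -/
noncomputable def transportQ (H : Subgroup G) (e : H ≃* Q) (y : G)
    (hyN : ∀ h ∈ H, y * h * y⁻¹ ∈ H) : Q →* Q :=
  MonoidHom.mk' (fun q => e ⟨y * (e.symm q : G) * y⁻¹, hyN _ (e.symm q).2⟩) (by
    intro p q
    rw [← map_mul]
    congr 1
    apply Subtype.ext
    simp only [map_mul, Subgroup.coe_mul]
    group)

lemma coe_symm_transportQ (H : Subgroup G) (e : H ≃* Q) (y : G)
    (hyN : ∀ h ∈ H, y * h * y⁻¹ ∈ H) (q : Q) :
    ((e.symm (transportQ H e y hyN q) : H) : G) = y * (e.symm q : G) * y⁻¹ := by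
  show ((e.symm (e ⟨y * (e.symm q : G) * y⁻¹, hyN _ (e.symm q).2⟩) : H) : G) = _
  rw [MulEquiv.symm_apply_apply]

lemma transportQ_injective (H : Subgroup G) (e : H ≃* Q) (y : G)
    (hyN : ∀ h ∈ H, y * h * y⁻¹ ∈ H) : Function.Injective (transportQ H e y hyN) := by
  intro p q hpq
  have h1 := coe_symm_transportQ H e y hyN p
  have h2 := coe_symm_transportQ H e y hyN q
  rw [hpq, h2] at h1
  have h3 : (e.symm q : G) = (e.symm p : G) := mul_left_cancel (mul_right_cancel h1)
  exact (e.symm.injective (Subtype.ext h3)).symm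

lemma coe_symm_transportQ_iterate (H : Subgroup G) (e : H ≃* Q) (y : G)
    (hyN : ∀ h ∈ H, y * h * y⁻¹ ∈ H) (q : Q) (n : ℕ) :
    ((e.symm ((transportQ H e y hyN)^[n] q) : H) : G) = y ^ n * (e.symm q : G) * (y ^ n)⁻¹ := by
  induction n with
  | zero => simp
  | succ n ih =>
    rw [Function.iterate_succ_apply', coe_symm_transportQ, ih, pow_succ']
    group

/-- the 8-th power of an element normalizing `H ≃ Q₁₆` centralizes `H`. -/
theorem pow8_centralizes (H : Subgroup G) (e : H ≃* QuaternionGroup 4) (y : G)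
    (hyN : ∀ h ∈ H, y * h * y⁻¹ ∈ H) : ∀ h ∈ H, y ^ 8 * h * (y ^ 8)⁻¹ = h := by
  set α := transportQ H e y hyN with hα
  have hαq : ∀ q, α q = q16Fun (α (a 1)) (α (xa 0)) q := hom_eq_q16Fun α
  have hinj : Function.Injective α := transportQ_injective H e y hyN
  have hs : α (a 1) ^ 4 ≠ 1 := by
    rw [← map_pow]
    intro h
    rw [← map_one α] at h
    have h1 := hinj h
    revert h1
    decide
  have ht : ∀ k : ZMod (2 * 4), α (xa 0) ≠ α (a 1) ^ k.val := by
    intro k h
    rw [← map_pow] at h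
    have h1 := hinj h
    rw [a_one_pow] at h1
    exact absurd h1 (by simp)
  have h8 := q16_iter8 _ _ hs ht
  intro h hh
  have h1 := coe_symm_transportQ_iterate H e y hyN (e ⟨h, hh⟩) 8
  have h2 := h8 (e ⟨h, hh⟩)
  rw [← hαq, ← hαq, ← hαq, ← hαq, ← hαq, ← hαq, ← hαq, ← hαq] at h2
  have h5 : α^[8] (e ⟨h, hh⟩) = e ⟨h, hh⟩ := h2
  rw [← hα, h5, MulEquiv.symm_apply_apply] at h1
  exact h1.symm

end transport

theorem pkgCore16 (hh : PkgHH.{v}) : PkgCore16.{v} := by
  intro X _ _ hsol hocf hP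
  obtain ⟨P, ⟨eP⟩⟩ := hP
  have : Fact (Nat.Prime 2) := ⟨Nat.prime_two⟩
  obtain ⟨T, hTn, hT2, hCT⟩ := hh hsol hocf
  haveI := hTn
  have hTP : T ≤ (P : Subgroup X) := hT2.le_sylow_of_normal P
  have hP16 : Nat.card (P : Subgroup X) = 16 := by
    rw [Nat.card_congr eP.toEquiv, Nat.card_eq_fintype_card, QuaternionGroup.card]
  have h16X : 16 ∣ Nat.card X := hP16 ▸ Subgroup.card_subgroup_dvd_card (P : Subgroup X)
  have hTdvd : Nat.card T ∣ 16 := hP16 ▸ Subgroup.card_dvd_of_le hTP
  have hXpos : 0 < Nat.card X := Nat.card_pos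
  have hX16 : 16 ≤ Nat.card X := Nat.le_of_dvd hXpos h16X
  have hTcases : Nat.card T = 1 ∨ Nat.card T = 2 ∨ Nat.card T = 4 ∨ Nat.card T = 8 ∨
      Nat.card T = 16 := by
    have h1 : Nat.card T ∈ Nat.divisors 16 := Nat.mem_divisors.mpr ⟨hTdvd, by norm_num⟩
    have h2 : ∀ d ∈ Nat.divisors 16, d = 1 ∨ d = 2 ∨ d = 4 ∨ d = 8 ∨ d = 16 := by decide
    exact h2 _ h1
  -- the case of a small `T`
  have hsmall : IsCyclic T → Nat.card T ≤ 4 → False := by
    intro hcyc hle
    have hker : (MulAut.conjNormal (H := T)).ker ≤ Subgroup.centralizer (T : Set X) := by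
      intro g hg
      rw [MonoidHom.mem_ker] at hg
      rw [Subgroup.mem_centralizer_iff]
      intro h hh
      have h1 := congrArg (fun φ : MulAut T => ((φ ⟨h, hh⟩ : T) : X)) hg
      simp only [MulAut.conjNormal_apply, MulAut.one_apply] at h1
      calc h * g = (g * h * g⁻¹) * g := by rw [h1]
        _ = g * h := by group
    have h1 : (MulAut.conjNormal (H := T)).ker.index ∣ Nat.card (MulAut T) := by
      rw [Subgroup.index_ker]
      exact Subgroup.card_subgroup_dvd_card _
    rw [IsCyclic.card_mulAut] at h1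
    have h2 : Nat.card (MulAut.conjNormal (H := T)).ker ≤ Nat.card T :=
      Subgroup.card_le_of_le (hker.trans hCT)
    have h3 := (MulAut.conjNormal (H := T)).ker.card_mul_index
    have h4 : (MulAut.conjNormal (H := T)).ker.index ≤ Nat.totient (Nat.card T) :=
      Nat.le_of_dvd (Nat.totient_pos.mpr Nat.card_pos) h1
    have h5 : Nat.totient (Nat.card T) ≤ 2 := by
      rcases hTcases with h | h | h | h | h
      · rw [h]; decide
      · rw [h]; decide
      · rw [h]; decide
      · omega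
      · omega
    have h6 : Nat.card X ≤ 4 * 2 := by
      rw [← h3]
      exact Nat.mul_le_mul (h2.trans hle) (h4.trans h5)
    omega
  rcases hTcases with h1 | h2 | h4 | h8 | h16
  · have : Subsingleton T := (Nat.card_eq_one_iff_unique.mp h1).1
    exact (hsmall isCyclic_of_subsingleton (by omega)).elim
  · exact (hsmall (isCyclic_of_prime_card h2) (by omega)).elim
  · exact (hsmall (isCyclic_of_card_four' (P : Subgroup X) T hTP eP (a 4) q16_sq_eq_one h4)
      (by omega)).elim
  · -- `X ⧸ T` has a Sylow 2-subgroup of order 2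
    have hcard : Nat.card X = Nat.card (X ⧸ T) * 8 := by
      rw [← h8]
      exact Subgroup.card_eq_card_quotient_mul_card_subgroup T
    have heven : 2 ∣ Nat.card (X ⧸ T) := by
      have : 8 * 2 ∣ Nat.card (X ⧸ T) * 8 := by rw [← hcard]; exact h16X
      rw [mul_comm] at this
      exact Nat.dvd_of_mul_dvd_mul_right (by norm_num) this
    obtain ⟨Q⟩ : Nonempty (Sylow 2 (X ⧸ T)) := inferInstance
    have hQ2 : Nat.card (Q : Subgroup (X ⧸ T)) = 2 := by
      obtain ⟨k, hk⟩ := IsPGroup.iff_card.mp Q.isPGroup'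
      have hk1 : k ≠ 0 := by
        intro h0
        rw [h0, pow_zero] at hk
        have h1 : 2 ∣ Nat.card (Q : Subgroup (X ⧸ T)) := Q.dvd_card_of_dvd_card heven
        rw [hk] at h1
        omega
      have hk2 : k ≤ 1 := by
        have h1 : 2 ^ k ∣ Nat.card (X ⧸ T) := hk ▸ Subgroup.card_subgroup_dvd_card _
        have h2 : 2 ^ (k + 3) ∣ Nat.card X := by
          rw [hcard, pow_add]
          exact Nat.mul_dvd_mul h1 (by norm_num)
        have h3 : 2 ^ (k + 3) ∣ Nat.card (P : Subgroup X) := P.pow_dvd_card_of_pow_dvd_card h2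
        rw [hP16, show (16 : ℕ) = 2 ^ 4 from rfl] at h3
        have := (Nat.pow_dvd_pow_iff_le_right (by norm_num : 1 < 2)).mp h3
        omega
      have hk3 : k = 1 := by omega
      rw [hk, hk3, pow_one]
    have hQc : IsCyclic (Q : Subgroup (X ⧸ T)) := isCyclic_of_prime_card hQ2
    have hN := Cfsg.Agent.Lib.Helper83.hasNormalPComplement_of_cyclic Q hQc heven
    have hI := Cfsg.Agent.Lib.Helper83.hasIdx2_of_hasNormalPComplement hN heven
    obtain ⟨N, hN2⟩ := Cfsg.Agent.Lib.Helper83.HasIdx2.of_surjective (QuotientGroup.mk' T)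
      (QuotientGroup.mk'_surjective T) hI
    exact ⟨N, Subgroup.normal_of_index_eq_two hN2, hN2⟩
  · -- `T = P ≃ Q₁₆`, and `X` is a 2-group
    have hTeq : T = (P : Subgroup X) :=
      Subgroup.eq_of_le_of_card_ge hTP (by rw [hP16, h16])
    let eT : T ≃* QuaternionGroup 4 := (MulEquiv.subgroupCongr hTeq).trans eP
    have hyN : ∀ g : X, ∀ h ∈ T, g * h * g⁻¹ ∈ T := fun g h hh => hTn.conj_mem h hh g
    have hprime : ∀ {d : ℕ}, Nat.Prime d → d ∣ Nat.card X → d = 2 := by
      intro d hd hdvd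
      have : Fact (Nat.Prime d) := ⟨hd⟩
      obtain ⟨g, hg⟩ := exists_prime_orderOf_dvd_card' d hdvd
      have hc8 := pow8_centralizes T eT g (hyN g)
      have hgT : g ^ 8 ∈ T := by
        apply hCT
        rw [Subgroup.mem_centralizer_iff]
        intro h hh
        have := hc8 h hh
        rw [mul_inv_eq_iff_eq_mul] at this
        exact this.symm
      obtain ⟨k, hk⟩ := hT2 ⟨g ^ 8, hgT⟩
      have hk' : (g ^ 8) ^ 2 ^ k = 1 := by
        have := congrArg Subtype.val hk
        simpa using this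
      rw [← pow_mul] at hk'
      have hd2 : d ∣ 2 ^ 3 * 2 ^ k := by
        rw [← hg]
        exact orderOf_dvd_of_pow_eq_one hk'
      rw [← pow_add] at hd2
      exact (Nat.prime_dvd_prime_iff_eq hd Nat.prime_two).mp (hd.dvd_of_dvd_pow hd2)
    have hpow := Nat.eq_prime_pow_of_unique_prime_dvd hXpos.ne' hprime
    refine hasIdx2N_of_card_two_pow (k := (Nat.card X).primeFactorsList.length) ?_ hpow
    by_contra hlen
    have h0 : (Nat.card X).primeFactorsList.length = 0 := by omega
    rw [h0, pow_zero] at hpow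
    omega

end Cfsg.Agent.Lib.Helper90.HUP
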